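import Cfsg.Agent.Lib.Forms.SympMatrix
import Cfsg.Agent.Lib.Classes.QuadSpace

set_option autoImplicit false

/-!
The Siegel decomposition in `Sp₄`, and products of two conjugates of an elliptic Levi element.
-/

namespace CfsgLib.PSpFourCover

open Matrix

variable {F : Type*} [Field F]

local notation "M₂" => Matrix (Fin 2) (Fin 2) F
local notation "M₄" => Matrix (Fin 2 ⊕ Fin 2) (Fin 2 ⊕ Fin 2) F
local notation "G₄" => Matrix.symplecticGroup (Fin 2) F

/-- The symmetric matrix with entries `a, b, c`. -/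
def sym (a b c : F) : M₂ := !![a, b; b, c]

theorem sym_transpose (a b c : F) : (sym a b c)ᵀ = sym a b c := by
  ext i j; fin_cases i <;> fin_cases j <;> rfl

theorem eq_sym {S : M₂} (hS : Sᵀ = S) : S = sym (S 0 0) (S 0 1) (S 1 1) := by
  ext i j; fin_cases i <;> fin_cases j
  · rfl
  · rfl
  · exact congrFun (congrFun hS 0) 1
  · rfl

theorem sym_neg (a b c : F) : -sym a b c = sym (-a) (-b) (-c) := by
  ext i j; fin_cases i <;> fin_cases j <;> rfl

theorem mem_iff_blocks {A B C D : M₂} :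
    fromBlocks A B C D ∈ Matrix.symplecticGroup (Fin 2) F ↔
      A * Bᵀ = B * Aᵀ ∧ C * Dᵀ = D * Cᵀ ∧ A * Dᵀ - B * Cᵀ = 1 := by
  rw [SymplecticGroup.mem_iff, Matrix.J, fromBlocks_transpose, fromBlocks_multiply,
    fromBlocks_multiply, fromBlocks_inj]
  simp only [Matrix.mul_zero, Matrix.mul_one, Matrix.mul_neg, zero_add, add_zero, Matrix.neg_mul]
  constructor
  · rintro ⟨h1, h2, -, h4⟩
    rw [← sub_eq_add_neg, sub_eq_zero] at h1 h4
    exact ⟨h1.symm, h4.symm, by rw [← neg_inj, ← h2]; abel⟩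
  · rintro ⟨h1, h2, h3⟩
    have h3' : D * Aᵀ - C * Bᵀ = 1 := by
      have := congrArg Matrix.transpose h3
      simpa [Matrix.transpose_sub, Matrix.transpose_mul] using this
    refine ⟨?_, ?_, ?_, ?_⟩
    · rw [h1]; abel
    · rw [← h3]; abel
    · rw [← h3']; abel
    · rw [h2]; abel

theorem blocks_eq (g : G₄) :
    (g : M₄) = fromBlocks (g : M₄).toBlocks₁₁ (g : M₄).toBlocks₁₂ (g : M₄).toBlocks₂₁ (g : M₄).toBlocks₂₂ :=
  (fromBlocks_toBlocks _).symm

theorem exists_blocks (g : G₄) :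
    ∃ A B C D : M₂, (g : M₄) = fromBlocks A B C D ∧
      A * Bᵀ = B * Aᵀ ∧ C * Dᵀ = D * Cᵀ ∧ A * Dᵀ - B * Cᵀ = 1 ∧
      Aᵀ * C = Cᵀ * A ∧ Bᵀ * D = Dᵀ * B ∧ Aᵀ * D - Cᵀ * B = 1 := by
  refine ⟨_, _, _, _, blocks_eq g, ?_⟩
  have h1 := g.2
  have h2 := SymplecticGroup.transpose_mem g.2
  rw [blocks_eq g] at h1 h2
  rw [fromBlocks_transpose, mem_iff_blocks] at h2
  rw [mem_iff_blocks] at h1
  simp only [Matrix.transpose_transpose] at h2
  exact ⟨h1.1, h1.2.1, h1.2.2, h2.1, h2.2.1, h2.2.2⟩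

/-- `[1 S; 0 1]`. -/
def upper (a b c : F) : G₄ :=
  ⟨fromBlocks 1 (sym a b c) 0 1, mem_iff_blocks.2 ⟨by simp [sym_transpose], by simp, by simp⟩⟩

/-- `[1 0; S 1]`. -/
def lower (a b c : F) : G₄ :=
  ⟨fromBlocks 1 0 (sym a b c) 1, mem_iff_blocks.2 ⟨by simp, by simp [sym_transpose], by simp⟩⟩

theorem upper_inv (a b c : F) : (upper a b c)⁻¹ = upper (-a) (-b) (-c) := by
  refine inv_eq_of_mul_eq_one_right (Subtype.ext ?_)
  simp [upper, ← sym_neg, fromBlocks_multiply, fromBlocks_one]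

theorem lower_inv (a b c : F) : (lower a b c)⁻¹ = lower (-a) (-b) (-c) := by
  refine inv_eq_of_mul_eq_one_right (Subtype.ext ?_)
  simp [lower, ← sym_neg, fromBlocks_multiply, fromBlocks_one]

theorem conj_upper {g : G₄} {A B C D : M₂} (hg : (g : M₄) = fromBlocks A B C D) (a b c : F) :
    ((upper a b c * g * (upper a b c)⁻¹ : G₄) : M₄) =
      fromBlocks (A + sym a b c * C)
        (B + sym a b c * D - (A + sym a b c * C) * sym a b c) C (D - C * sym a b c) := by
  rw [upper_inv, Submonoid.coe_mul, Submonoid.coe_mul, hg]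
  simp [upper, ← sym_neg, fromBlocks_multiply, sub_eq_add_neg, add_comm, add_left_comm, add_assoc]

theorem conj_lower {g : G₄} {A B C D : M₂} (hg : (g : M₄) = fromBlocks A B C D) (a b c : F) :
    ((lower a b c * g * (lower a b c)⁻¹ : G₄) : M₄) =
      fromBlocks (A - B * sym a b c) B
        (C + sym a b c * A - (sym a b c * B + D) * sym a b c) (sym a b c * B + D) := by
  rw [lower_inv, Submonoid.coe_mul, Submonoid.coe_mul, hg]
  simp [lower, ← sym_neg, fromBlocks_multiply, sub_eq_add_neg, add_comm, add_left_comm, add_assoc]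

/-- The Levi element `diag(A, A⁻ᵀ)`. -/
noncomputable def lev : GL (Fin 2) F →* G₄ where
  toFun A := ⟨fromBlocks (A : M₂) 0 0 ((A⁻¹ : GL (Fin 2) F) : M₂)ᵀ, mem_iff_blocks.2
    ⟨by simp, by simp, by simp⟩⟩
  map_one' := Subtype.ext (by simp [fromBlocks_one])
  map_mul' A B := Subtype.ext (by simp [fromBlocks_multiply, Matrix.transpose_mul])

theorem lev_val (A : GL (Fin 2) F) :
    ((lev A : G₄) : M₄) = fromBlocks (A : M₂) 0 0 ((A⁻¹ : GL (Fin 2) F) : M₂)ᵀ := rfl

theorem lev_injective : Function.Injective (lev : GL (Fin 2) F →* G₄) := fun A B h => by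
  have := congrArg (fun g : G₄ => (g : M₄)) h
  simp only [lev_val, fromBlocks_inj] at this
  exact Units.ext this.1

/-- Two non-scalar `2 × 2` matrices with equal trace and determinant are conjugate. -/
theorem exists_conj {A B : M₂} (hA : ∀ c : F, A ≠ c • 1) (hB : ∀ c : F, B ≠ c • 1)
    (ht : A.trace = B.trace) (hd : A.det = B.det) :
    ∃ P : GL (Fin 2) F, A = (P : M₂) * B * ((P⁻¹ : GL (Fin 2) F) : M₂) := by
  have key : ∀ {A : M₂}, (∀ c : F, A ≠ c • 1) →
      ∃ P : GL (Fin 2) F, A * (P : M₂) = (P : M₂) * !![0, -A.det; 1, A.trace] := by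
    intro A hA
    have hP : ∃ v w : F, v * (A 1 0 * v + A 1 1 * w) - w * (A 0 0 * v + A 0 1 * w) ≠ 0 := by
      by_contra h
      push Not at h
      have h1 : A 1 0 = 0 := by simpa using h 1 0
      have h2 : A 0 1 = 0 := by simpa using h 0 1
      have h3 : A 1 1 = A 0 0 := by simpa [h1, h2, sub_eq_zero] using h 1 1
      refine hA (A 0 0) ?_
      ext i j; fin_cases i <;> fin_cases j <;> simp [h1, h2, h3]
    obtain ⟨v, w, hP⟩ := hP
    refine ⟨GeneralLinearGroup.mkOfDetNeZero
      !![v, A 0 0 * v + A 0 1 * w; w, A 1 0 * v + A 1 1 * w] ?_, ?_⟩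
    · rw [det_fin_two_of, mul_comm (A 0 0 * v + A 0 1 * w)]
      exact hP
    · ext i j
      fin_cases i <;> fin_cases j <;>
        simp [Matrix.mul_apply, det_fin_two, trace_fin_two, GeneralLinearGroup.mkOfDetNeZero] <;> ring
  obtain ⟨P, hP⟩ := key hA
  obtain ⟨Q, hQ⟩ := key hB
  rw [← ht, ← hd] at hQ
  refine ⟨P * Q⁻¹, ?_⟩
  have e : A = (P : M₂) * !![0, -A.det; 1, A.trace] * ((P⁻¹ : GL (Fin 2) F) : M₂) := by
    rw [← hP, Units.mul_inv_cancel_right]
  have e' : ((Q⁻¹ : GL (Fin 2) F) : M₂) * B * (Q : M₂) = !![0, -A.det; 1, A.trace] := by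
    rw [Matrix.mul_assoc, hQ, ← Matrix.mul_assoc, Units.inv_mul, Matrix.one_mul]
  rw [← e'] at e
  simp only [_root_.mul_inv_rev, inv_inv, Units.val_mul]
  simpa [Matrix.mul_assoc] using e

/-- No symmetric matrix other than zero is invariant under an elliptic matrix of determinant not one. -/
theorem sym_invariant_eq_zero {A : M₂} (hirr : ∀ x : F, x * x - A.trace * x + A.det ≠ 0)
    (hd : A.det ≠ 1) {T : M₂} (hT : Tᵀ = T) (h : Aᵀ * T * A = T) : T = 0 := by
  have hns : ∀ c : F, A ≠ c • 1 := by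
    intro c hc; apply hirr c; subst hc; simp [trace_fin_two, det_fin_two]; ring
  set K : M₂ := !![0, -A.det; 1, A.trace] with hK
  have hKns : ∀ c : F, K ≠ c • 1 := fun c hc => by
    simpa [hK] using congrFun (congrFun hc 1) 0
  obtain ⟨P, hP⟩ := exists_conj hns hKns (by simp [hK, trace_fin_two]) (by simp [hK])
  set T' := (P : M₂)ᵀ * T * (P : M₂) with hT'
  have hT's : T'ᵀ = T' := by simp [hT', Matrix.transpose_mul, hT, Matrix.mul_assoc]
  have h' : Kᵀ * T' * K = T' := by
    have e : A * (P : M₂) = (P : M₂) * K := by rw [hP, Units.inv_mul_cancel_right]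
    rw [hT', show Kᵀ * ((P : M₂)ᵀ * T * (P : M₂)) * K = ((P : M₂) * K)ᵀ * T * ((P : M₂) * K) by
      simp [Matrix.transpose_mul, Matrix.mul_assoc], ← e,
      show (A * (P : M₂))ᵀ * T * (A * (P : M₂)) = (P : M₂)ᵀ * (Aᵀ * T * A) * (P : M₂) by
      simp [Matrix.transpose_mul, Matrix.mul_assoc], h]
  have hz : T' = 0 := by
    rw [eq_sym hT's] at h' ⊢
    set a := T' 0 0
    set b := T' 0 1
    set c := T' 1 1
    have e00 := congrFun (congrFun h' 0) 0
    have e01 := congrFun (congrFun h' 0) 1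
    have e11 := congrFun (congrFun h' 1) 1
    simp [hK, sym, Matrix.mul_apply] at e00 e01 e11
    rw [← e00] at e11 ⊢
    set d := A.det
    set t := A.trace
    have hmain : c * ((1 - d) * ((t - (1 + d)) * (t + (1 + d)))) = 0 := by
      linear_combination (1 + d) * e11 - 2 * t * d * e01
    have h1 : t - (1 + d) ≠ 0 := fun e => hirr 1 (by linear_combination -e)
    have h2 : t + (1 + d) ≠ 0 := fun e => hirr (-1) (by linear_combination e)
    have hc : c = 0 := by
      have : (1 - d) * ((t - (1 + d)) * (t + (1 + d))) ≠ 0 :=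
        mul_ne_zero (sub_ne_zero.2 fun e => hd e.symm) (mul_ne_zero h1 h2)
      exact (mul_eq_zero.1 hmain).resolve_right this
    have hb : b = 0 := by
      by_contra hb
      rw [hc] at e01 e11
      have hd1 : d = -1 := by
        have : (1 + d) * b = 0 := by linear_combination -e01
        linear_combination (mul_eq_zero.1 this).resolve_right hb
      have : (2 * t) * b = 0 := by
        rw [hd1] at e11; linear_combination e11
      rcases mul_eq_zero.1 ((mul_eq_zero.1 this).resolve_right hb) with h | h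
      · exact hd (by linear_combination hd1 - h)
      · exact h1 (by linear_combination h - hd1)
    ext i j; fin_cases i <;> fin_cases j <;> simp [sym, hb, hc]
  have : T = ((P⁻¹ : GL (Fin 2) F) : M₂)ᵀ * T' * ((P⁻¹ : GL (Fin 2) F) : M₂) := by
    rw [hT', ← Matrix.mul_assoc, ← Matrix.mul_assoc, ← Matrix.transpose_mul,
      Units.mul_inv, Matrix.transpose_one, Matrix.one_mul, Units.mul_inv_cancel_right]
  rw [this, hz]; simp

/-- The equation `Aᵀ T A - T = S` has a symmetric solution. -/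
theorem exists_sym_solve {A : M₂} (hirr : ∀ x : F, x * x - A.trace * x + A.det ≠ 0)
    (hd : A.det ≠ 1) {S : M₂} (hS : Sᵀ = S) :
    ∃ a b c : F, Aᵀ * sym a b c * A - sym a b c = S := by
  let L : (F × F × F) →ₗ[F] M₂ :=
    { toFun := fun p => Aᵀ * sym p.1 p.2.1 p.2.2 * A - sym p.1 p.2.1 p.2.2
      map_add' := fun p r => by
        have : sym (p.1 + r.1) (p.2.1 + r.2.1) (p.2.2 + r.2.2) = sym p.1 p.2.1 p.2.2 + sym r.1 r.2.1 r.2.2 := by
          ext i j; fin_cases i <;> fin_cases j <;> rfl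
        simp only [Prod.fst_add, Prod.snd_add, this, Matrix.mul_add, Matrix.add_mul]
        abel
      map_smul' := fun c p => by
        have : sym (c * p.1) (c * p.2.1) (c * p.2.2) = c • sym p.1 p.2.1 p.2.2 := by
          ext i j; fin_cases i <;> fin_cases j <;> rfl
        simp [this, smul_sub] }
  let E : M₂ →ₗ[F] F × F × F :=
    { toFun := fun M => (M 0 0, M 0 1, M 1 1)
      map_add' := fun _ _ => rfl
      map_smul' := fun _ _ => rfl }
  have hLs : ∀ p, (L p)ᵀ = L p := fun p => by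
    simp [L, Matrix.transpose_sub, Matrix.transpose_mul, sym_transpose, Matrix.mul_assoc]
  have hsurj : Function.Surjective (E ∘ₗ L) := by
    rw [← LinearMap.injective_iff_surjective, ← LinearMap.ker_eq_bot, LinearMap.ker_eq_bot']
    intro p hp
    have h0 : L p = 0 := by
      have hp' : (L p 0 0, L p 0 1, L p 1 1) = (0 : F × F × F) := hp
      simp only [Prod.ext_iff, Prod.fst_zero, Prod.snd_zero] at hp'
      rw [eq_sym (hLs p), hp'.1, hp'.2.1, hp'.2.2]
      ext i j; fin_cases i <;> fin_cases j <;> rfl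
    have := sym_invariant_eq_zero hirr hd (sym_transpose p.1 p.2.1 p.2.2) (sub_eq_zero.1 h0)
    exact Prod.ext (congrFun (congrFun this 0) 0)
      (Prod.ext (congrFun (congrFun this 0) 1) (congrFun (congrFun this 1) 1))
  obtain ⟨p, hp⟩ := hsurj (E S)
  refine ⟨p.1, p.2.1, p.2.2, ?_⟩
  have hp' : (L p 0 0, L p 0 1, L p 1 1) = (S 0 0, S 0 1, S 1 1) := hp
  simp only [Prod.ext_iff] at hp'
  show L p = S
  rw [eq_sym (hLs p), eq_sym hS, hp'.1, hp'.2.1, hp'.2.2]

/-- Parameters of an elliptic element: `x² - t x + d` without roots, `t ≠ 0`, `d ≠ 1`. -/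
structure Params (t d : F) : Prop where
  t_ne : t ≠ 0
  d_ne_one : d ≠ 1
  irr : ∀ x : F, x * x - t * x + d ≠ 0

theorem Params.d_ne {t d : F} (h : Params t d) : d ≠ 0 := fun e => h.irr 0 (by simp [e])

theorem exists_params [Fintype F] (h3 : 3 ≤ Fintype.card F) : ∃ t d : F, Params t d := by
  classical
  obtain ⟨r, hr⟩ : ∃ r : F, ∀ a : F, a - a * a ≠ r := by
    by_contra h
    push Not at h
    exact one_ne_zero (Finite.injective_iff_surjective.2 h
      (show (1 : F) - 1 * 1 = 0 - 0 * 0 by ring))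
  by_cases hr1 : r = 1
  · subst hr1
    obtain ⟨t, ht⟩ : ∃ t : F, t ∉ ({0, 1, -1} : Finset F) := by
      by_contra h
      push Not at h
      have hc : Fintype.card F = 3 := by
        refine le_antisymm ?_ h3
        calc Fintype.card F ≤ ({0, 1, -1} : Finset F).card :=
              Finset.card_le_card (s := Finset.univ) fun x _ => h x
          _ ≤ 3 := Finset.card_le_three
      have h30 : (3 : F) = 0 := by
        have := Nat.cast_card_eq_zero F
        rw [hc] at this; exact_mod_cast this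
      exact hr (-1) (by linear_combination -h30)
    simp only [Finset.mem_insert, Finset.mem_singleton, not_or] at ht
    refine ⟨t, t * t, ht.1, ?_, fun x hx => hr (x / t) ?_⟩
    · intro e
      rcases mul_self_eq_one_iff.1 e with e | e
      · exact ht.2.1 e
      · exact ht.2.2 e
    · have := ht.1
      field_simp
      linear_combination -hx
  · exact ⟨1, r, one_ne_zero, hr1, fun x hx => hr x (by linear_combination -hx)⟩

/-- The elliptic matrix. -/
noncomputable def ellM {t d : F} (h : Params t d) : GL (Fin 2) F :=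
  GeneralLinearGroup.mkOfDetNeZero !![0, -d; 1, t] (by simpa using h.d_ne)

theorem ellM_val {t d : F} (h : Params t d) : (ellM h : M₂) = !![0, -d; 1, t] := rfl

theorem ellM_inv_val {t d : F} (h : Params t d) :
    ((ellM h)⁻¹ : GL (Fin 2) F).val = !![t / d, 1; -(1 / d), 0] := by
  have := h.d_ne
  refine Units.inv_eq_of_mul_eq_one_right ?_
  rw [ellM_val]
  ext i j; fin_cases i <;> fin_cases j <;> simp [Matrix.mul_apply] <;> field_simp <;> ring

/-- `g` is a product of two conjugates of the elliptic Levi element. -/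
def Cov {t d : F} (h : Params t d) (g : G₄) : Prop :=
  ∃ u v : G₄, g = u * lev (ellM h) * u⁻¹ * (v * lev (ellM h) * v⁻¹)

theorem cov_of_conj {t d : F} {h : Params t d} {g : G₄} (p : G₄) (hc : Cov h (p * g * p⁻¹)) :
    Cov h g := by
  obtain ⟨u, v, e⟩ := hc
  refine ⟨p⁻¹ * u, p⁻¹ * v, ?_⟩
  calc g = p⁻¹ * (p * g * p⁻¹) * p := by group
    _ = _ := by rw [e]; group

/-- A `2 × 2` matrix with the characteristic polynomial of the elliptic matrix or of its inverse. -/
def IsEll (t d : F) (A : M₂) : Prop :=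
  (A.trace = t ∧ A.det = d) ∨ (A.trace = t / d ∧ A.det = 1 / d)

/-- A `2 × 2` matrix that is a product of two elliptic ones. -/
def Good (t d : F) (A : M₂) : Prop :=
  ∃ A₁ A₂ : M₂, A = A₁ * A₂ ∧ IsEll t d A₁ ∧ IsEll t d A₂

theorem IsEll.irr {t d : F} (h : Params t d) {A : M₂} (hA : IsEll t d A) :
    (∀ x : F, x * x - A.trace * x + A.det ≠ 0) ∧ A.det ≠ 1 ∧ A.det ≠ 0 := by
  have hd := h.d_ne
  rcases hA with ⟨h1, h2⟩ | ⟨h1, h2⟩
  · rw [h1, h2]; exact ⟨h.irr, h.d_ne_one, hd⟩
  · rw [h1, h2]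
    refine ⟨fun x hx => ?_, fun e => h.d_ne_one ?_, by simp [hd]⟩
    · have hx0 : x ≠ 0 := fun e => by simp [e, hd] at hx
      apply h.irr (1 / x)
      field_simp at hx ⊢
      linear_combination hx
    · field_simp at e; exact e.symm

/-- The Levi element of an elliptic matrix is conjugate to the standard one. -/
theorem exists_conj_lev {t d : F} (h : Params t d) (A : GL (Fin 2) F) (hA : IsEll t d (A : M₂)) :
    ∃ u : G₄, lev A = u * lev (ellM h) * u⁻¹ := by
  have hd := h.d_ne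
  have hns : ∀ {B : M₂}, IsEll t d B → ∀ c : F, B ≠ c • 1 := fun {B} hB c hc => by
    apply (hB.irr h).1 c; subst hc; simp [trace_fin_two, det_fin_two]; ring
  have hM : IsEll t d (ellM h : M₂) :=
    Or.inl ⟨by simp [ellM_val, trace_fin_two], by simp [ellM_val]⟩
  rcases hA with hA' | hA'
  · obtain ⟨P, hP⟩ := exists_conj (hns (Or.inl hA')) (hns hM)
      (by simp [ellM_val, trace_fin_two, hA'.1]) (by simp [ellM_val, hA'.2])
    refine ⟨lev P, ?_⟩
    rw [← map_inv, ← map_mul, ← map_mul]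
    exact congrArg lev (Units.ext (by simpa using hP))
  · obtain ⟨P, hP⟩ := exists_conj (hns (Or.inr hA'))
      (B := ((ellM h)⁻¹ : GL (Fin 2) F).val)
      (hns (Or.inr ⟨by simp [-Matrix.coe_units_inv, ellM_inv_val, trace_fin_two],
        by simp [-Matrix.coe_units_inv, ellM_inv_val, det_fin_two]⟩))
      (by simp [-Matrix.coe_units_inv, ellM_inv_val, trace_fin_two, hA'.1]) (by simp [-Matrix.coe_units_inv, ellM_inv_val, det_fin_two, hA'.2])
    have hJ : fromBlocks (0 : M₂) (-1) 1 0 ∈ Matrix.symplecticGroup (Fin 2) F :=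
      mem_iff_blocks.2 ⟨by simp, by simp, by simp⟩
    let R : GL (Fin 2) F := ⟨!![0, 1; 1, t], !![-t, 1; 1, 0],
      by ext i j; fin_cases i <;> fin_cases j <;> simp [Matrix.mul_apply],
      by ext i j; fin_cases i <;> fin_cases j <;> simp [Matrix.mul_apply]⟩
    set w : G₄ := ⟨_, hJ⟩ * lev R with hw
    have key : lev (ellM h)⁻¹ * w = w * lev (ellM h) := by
      apply Subtype.ext
      have hRi : ((R⁻¹ : GL (Fin 2) F) : M₂) = !![-t, 1; 1, 0] := rfl
      have hRv : (R : M₂) = !![0, 1; 1, t] := rfl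
      simp only [hw, Submonoid.coe_mul, lev_val, inv_inv, fromBlocks_multiply, ellM_val,
        ellM_inv_val, hRi, hRv, Matrix.zero_mul, Matrix.mul_zero, Matrix.one_mul, Matrix.neg_mul,
        add_zero, zero_add, fromBlocks_inj]
      refine ⟨by simp, ?_, ?_, by simp⟩ <;>
        (ext i j; fin_cases i <;> fin_cases j <;> simp [Matrix.mul_apply] <;> field_simp <;> ring)
    refine ⟨lev P * w, ?_⟩
    calc lev A = lev P * lev (ellM h)⁻¹ * (lev P)⁻¹ := by
          rw [← map_inv lev P, ← map_mul, ← map_mul]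
          exact congrArg lev (Units.ext (by simpa using hP))
      _ = lev P * (lev (ellM h)⁻¹ * w) * w⁻¹ * (lev P)⁻¹ := by group
      _ = _ := by rw [key]; group

/-- An element whose upper left block is a product of two elliptic matrices is covered. -/
theorem cov_of_good {t d : F} (h : Params t d) {g : G₄} {A B C D : M₂}
    (hg : (g : M₄) = fromBlocks A B C D) (hA : Good t d A) : Cov h g := by
  obtain ⟨A₁, A₂, rfl, h1, h2⟩ := hA
  set P₁ : GL (Fin 2) F := GeneralLinearGroup.mkOfDetNeZero A₁ (h1.irr h).2.2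
  set P₂ : GL (Fin 2) F := GeneralLinearGroup.mkOfDetNeZero A₂ (h2.irr h).2.2
  have e1 : (P₁ : M₂) = A₁ := rfl
  have e2 : (P₂ : M₂) = A₂ := rfl
  obtain ⟨A', B', C', D', hg', hAB, -, -, hAC, -, hAD⟩ := exists_blocks g
  rw [hg, fromBlocks_inj] at hg'
  obtain ⟨rfl, rfl, rfl, rfl⟩ := hg'
  set I₁ := ((P₁⁻¹ : GL (Fin 2) F) : M₂) with hI1
  set I₂ := ((P₂⁻¹ : GL (Fin 2) F) : M₂) with hI2
  have i1 : A₁ * I₁ = 1 := by rw [hI1, ← e1, Units.mul_inv]
  have i1' : I₁ * A₁ = 1 := by rw [hI1, ← e1, Units.inv_mul]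
  have i2 : A₂ * I₂ = 1 := by rw [hI2, ← e2, Units.mul_inv]
  have i2' : I₂ * A₂ = 1 := by rw [hI2, ← e2, Units.inv_mul]
  obtain ⟨P, hP⟩ : ∃ P, P = A₁ * A₂ := ⟨_, rfl⟩
  obtain ⟨Q, hQ⟩ : ∃ Q, Q = I₂ * I₁ := ⟨_, rfl⟩
  rw [← hP] at hg hAB hAC hAD
  have hPQ : P * Q = 1 := by
    rw [hP, hQ, Matrix.mul_assoc, ← Matrix.mul_assoc A₂, i2, Matrix.one_mul, i1]
  have hQP : Q * P = 1 := mul_eq_one_comm.1 hPQ
  have hQtP : Qᵀ * Pᵀ = 1 := by rw [← Matrix.transpose_mul, hPQ, Matrix.transpose_one]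
  have hS1 : (C * Q)ᵀ = C * Q := by
    calc (C * Q)ᵀ = Qᵀ * (Cᵀ * P) * Q := by
          rw [Matrix.transpose_mul, Matrix.mul_assoc Qᵀ, Matrix.mul_assoc Cᵀ, hPQ, Matrix.mul_one]
      _ = C * Q := by rw [← hAC, ← Matrix.mul_assoc, hQtP, Matrix.one_mul]
  have hS2 : (Q * B)ᵀ = Q * B := by
    calc (Q * B)ᵀ = Q * (P * Bᵀ) * Qᵀ := by
          rw [Matrix.transpose_mul, ← Matrix.mul_assoc Q, hQP, Matrix.one_mul]
      _ = Q * B * (Qᵀ * Pᵀ)ᵀ := by
          rw [hAB, Matrix.transpose_mul, Matrix.transpose_transpose, Matrix.transpose_transpose,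
            Matrix.mul_assoc, Matrix.mul_assoc, Matrix.mul_assoc, ← Matrix.transpose_mul, hQP,
            Matrix.transpose_one, hPQ]
      _ = Q * B := by rw [hQtP, Matrix.transpose_one, Matrix.mul_one]
  obtain ⟨ha, hb, -⟩ := h1.irr h
  obtain ⟨a, b, c, hT⟩ := exists_sym_solve ha hb (S := A₁ᵀ * (C * Q) * A₁)
    (by rw [Matrix.transpose_mul, Matrix.transpose_mul, Matrix.transpose_transpose, hS1]
        simp only [Matrix.mul_assoc])
  obtain ⟨ha', hb', -⟩ := h2.irr h
  obtain ⟨a', b', c', hT'⟩ := exists_sym_solve (A := A₂ᵀ) (by rwa [trace_transpose, det_transpose])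
    (by rwa [det_transpose]) (S := -(A₂ * (Q * B) * A₂ᵀ))
    (by rw [Matrix.transpose_neg, Matrix.transpose_mul, Matrix.transpose_mul,
      Matrix.transpose_transpose, hS2]
        simp only [Matrix.mul_assoc])
  rw [Matrix.transpose_transpose] at hT'
  set T := sym a b c with hTdef
  set T' := sym a' b' c' with hT'def
  obtain ⟨u, hu⟩ := exists_conj_lev h P₁ h1
  obtain ⟨v, hv⟩ := exists_conj_lev h P₂ h2
  refine ⟨lower a b c * u, upper a' b' c' * v, Subtype.ext ?_⟩
  have k1 : C * Q * A₁ = T * A₁ - I₁ᵀ * T := by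
    calc C * Q * A₁ = I₁ᵀ * (A₁ᵀ * (C * Q) * A₁) := by
          rw [← Matrix.mul_assoc, ← Matrix.mul_assoc, ← Matrix.transpose_mul, i1,
            Matrix.transpose_one, Matrix.one_mul]
      _ = I₁ᵀ * (A₁ᵀ * T * A₁ - T) := by rw [hT]
      _ = _ := by
          rw [Matrix.mul_sub, ← Matrix.mul_assoc, ← Matrix.mul_assoc, ← Matrix.transpose_mul, i1,
            Matrix.transpose_one, Matrix.one_mul]
  have k2 : A₂ * (Q * B) = T' * I₂ᵀ - A₂ * T' := by
    calc A₂ * (Q * B) = -(-(A₂ * (Q * B) * A₂ᵀ)) * I₂ᵀ := by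
          rw [neg_neg, Matrix.mul_assoc (A₂ * (Q * B)), ← Matrix.transpose_mul, i2',
            Matrix.transpose_one, Matrix.mul_one]
      _ = -(A₂ * T' * A₂ᵀ - T') * I₂ᵀ := by rw [hT']
      _ = _ := by
          rw [Matrix.neg_mul, Matrix.sub_mul, Matrix.mul_assoc (A₂ * T'), ← Matrix.transpose_mul,
            i2', Matrix.transpose_one, Matrix.mul_one, neg_sub]
  have hl := conj_lower (lev_val P₁) a b c
  have hr := conj_upper (lev_val P₂) a' b' c'
  rw [show lower a b c * u * lev (ellM h) * (lower a b c * u)⁻¹ =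
      lower a b c * lev P₁ * (lower a b c)⁻¹ by rw [hu]; group,
    show upper a' b' c' * v * lev (ellM h) * (upper a' b' c' * v)⁻¹ =
      upper a' b' c' * lev P₂ * (upper a' b' c')⁻¹ by rw [hv]; group,
    Submonoid.coe_mul, hl, hr, hg]
  simp only [Matrix.zero_mul, Matrix.mul_zero, sub_zero, add_zero, zero_add, e1, e2, ← hI1, ← hI2,
    fromBlocks_multiply]
  rw [← hTdef, ← hT'def, ← k1, ← k2, fromBlocks_inj]
  have hC : C * Q * A₁ * A₂ = C := by
    rw [Matrix.mul_assoc, Matrix.mul_assoc C, ← hP, hQP, Matrix.mul_one]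
  have hB : A₁ * (A₂ * (Q * B)) = B := by
    rw [← Matrix.mul_assoc, ← hP, ← Matrix.mul_assoc, hPQ, Matrix.one_mul]
  refine ⟨hP, hB.symm, hC.symm, ?_⟩
  calc D = Qᵀ * (Pᵀ * D - Cᵀ * B) + Qᵀ * Cᵀ * B := by
        rw [Matrix.mul_sub, ← Matrix.mul_assoc, hQtP, Matrix.one_mul, ← Matrix.mul_assoc]; abel
    _ = Qᵀ + C * Q * B := by rw [hAD, Matrix.mul_one, ← Matrix.transpose_mul, hS1]
    _ = C * Q * A₁ * (A₂ * (Q * B)) + I₁ᵀ * I₂ᵀ := by
        rw [Matrix.mul_assoc (C * Q), hB, ← Matrix.transpose_mul, ← hQ, add_comm]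

theorem good_one {t d : F} (h : Params t d) : Good t d (1 : M₂) := by
  refine ⟨(ellM h : M₂), ((ellM h)⁻¹ : GL (Fin 2) F).val, (Units.mul_inv _).symm, Or.inl ?_, Or.inr ?_⟩
  · exact ⟨by simp [ellM_val, trace_fin_two], by simp [ellM_val]⟩
  · exact ⟨by simp [-Matrix.coe_units_inv, ellM_inv_val, trace_fin_two], by simp [-Matrix.coe_units_inv, ellM_inv_val, det_fin_two]⟩

theorem good_d {t d : F} (h : Params t d) : Good t d (d • 1 : M₂) := by
  refine ⟨!![0, -d; 1, t], !![t, d; -1, 0], ?_, Or.inl ?_, Or.inl ?_⟩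
  · ext i j; fin_cases i <;> fin_cases j <;> simp [Matrix.mul_apply] <;> ring
  · exact ⟨by simp [trace_fin_two], by simp⟩
  · exact ⟨by simp [trace_fin_two], by simp⟩

/-- The affine conic attached to a trace has a point. -/
theorem exists_conic [Fintype F] {t d : F} (h : Params t d) (l : F) :
    ∃ a b : F, b ≠ 0 ∧ b * b - t * a * b + d * a * a + l * b - d * t * a + d * d = 0 := by
  let e : (Fin 3) → (Fin 3 → F) →ₗ[F] F := fun i => LinearMap.proj i
  let B : LinearMap.BilinForm F (Fin 3 → F) :=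
    LinearMap.mk₂ F (fun u v => u 1 * v 1 - t * (u 0 * v 1) + d * (u 0 * v 0) + l * (u 1 * v 2)
      - d * t * (u 0 * v 2) + d * d * (u 2 * v 2))
      (fun u u' v => by simp; ring) (fun c u v => by simp; ring)
      (fun u v v' => by simp; ring) (fun c u v => by simp; ring)
  obtain ⟨x, hx0, hx⟩ := CfsgLib.Classes.exists_singular_of_three_le B.toQuadraticMap (by simp)
  simp only [LinearMap.BilinMap.toQuadraticMap_apply, B, LinearMap.mk₂_apply] at hx
  have h2 : x 2 ≠ 0 := by
    intro hz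
    rw [hz] at hx
    apply hx0
    by_cases h0 : x 0 = 0
    · rw [h0] at hx
      have : x 1 = 0 := by simpa using hx
      ext i; fin_cases i <;> simp [h0, this, hz]
    · exfalso
      apply h.irr (x 1 / x 0)
      field_simp
      linear_combination hx
  refine ⟨x 0 / x 2, x 1 / x 2, fun e => ?_, by field_simp; linear_combination hx⟩
  have h1 : x 1 = 0 := by simpa [h2] using e
  rw [h1] at hx
  apply h.irr (x 0 / x 2)
  have := h.d_ne
  field_simp
  apply mul_left_cancel₀ this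
  linear_combination hx

/-- A non-scalar matrix of determinant one and trace not two is a product of two elliptic matrices. -/
theorem good_det_one [Fintype F] {t d : F} (h : Params t d) {A : M₂} (hns : ∀ c : F, A ≠ c • 1)
    (hdet : A.det = 1) (htr : A.trace ≠ 2) : Good t d A := by
  obtain ⟨a, b, hb, hab⟩ := exists_conic h (A.trace * d)
  have hd := h.d_ne
  set X : M₂ := !![a, b; (a * (t - a) - d) / b, t - a] with hX
  set N : M₂ := ((ellM h)⁻¹ : GL (Fin 2) F).val with hN
  have hXt : X.trace = t := by simp [hX, trace_fin_two]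
  have hXd : X.det = d := by simp [hX]; field_simp; ring
  have hNe : IsEll t d N :=
    Or.inr ⟨by simp [-Matrix.coe_units_inv, hN, ellM_inv_val, trace_fin_two], by simp [-Matrix.coe_units_inv, hN, ellM_inv_val, det_fin_two]⟩
  have hZd : (X * N).det = A.det := by
    rw [det_mul, hXd, hdet, hN, ellM_inv_val]; simp [hd]
  have hZt : (X * N).trace = A.trace := by
    rw [hN, ellM_inv_val, hX]; simp [trace_fin_two]
    rw [trace_fin_two A] at hab
    field_simp
    linear_combination -hab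
  have hZ : ∀ c : F, X * N ≠ c • 1 := by
    intro c hc
    have hXc : X = c • (ellM h : M₂) := by
      have := congrArg (· * (ellM h : M₂)) hc
      simpa [hN, Matrix.mul_assoc, Units.inv_mul] using this
    have hc1 : c = 1 := by
      have := congrArg Matrix.trace hXc
      rw [hXt, trace_smul, ellM_val] at this
      simp [trace_fin_two] at this
      exact mul_right_cancel₀ h.t_ne (by linear_combination -this)
    apply htr
    rw [← hZt, hc, hc1, one_smul, trace_one]; simp
  obtain ⟨P, hP⟩ := exists_conj hns hZ hZt.symm hZd.symm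
  refine ⟨(P : M₂) * X * ((P⁻¹ : GL (Fin 2) F) : M₂), (P : M₂) * N * ((P⁻¹ : GL (Fin 2) F) : M₂), ?_, ?_, ?_⟩
  · rw [hP]; simp [Matrix.mul_assoc, ← Matrix.mul_assoc ((P⁻¹ : GL (Fin 2) F) : M₂), Units.inv_mul]
  · exact Or.inl ⟨by rw [trace_units_conj, hXt], by rw [det_units_conj, hXd]⟩
  · unfold IsEll; rw [trace_units_conj, det_units_conj]; exact hNe

/-- A non-scalar matrix of determinant `d²` and trace not `2 d` is a product of two elliptic matrices. -/
theorem good_det_sq [Fintype F] {t d : F} (h : Params t d) {A : M₂} (hns : ∀ c : F, A ≠ c • 1)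
    (hdet : A.det = d * d) (htr : A.trace ≠ 2 * d) : Good t d A := by
  obtain ⟨a, b, hb, hab⟩ := exists_conic h (t * t - A.trace)
  have hd := h.d_ne
  set X : M₂ := !![a, b; (a * (t - a) - d) / b, t - a] with hX
  set N : M₂ := !![0, -d; 1, t] with hN
  have hXt : X.trace = t := by simp [hX, trace_fin_two]
  have hXd : X.det = d := by simp [hX]; field_simp; ring
  have hNe : IsEll t d N := Or.inl ⟨by simp [hN, trace_fin_two], by simp [hN]⟩
  have hZd : (X * N).det = A.det := by
    rw [det_mul, hXd, hdet, hN]; simp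
  have hZt : (X * N).trace = A.trace := by
    rw [hN, hX]; simp [trace_fin_two]
    rw [trace_fin_two A] at hab
    field_simp
    linear_combination hab
  have hZ : ∀ c : F, X * N ≠ c • 1 := by
    intro c hc
    have e00 := congrFun (congrFun hc 0) 0
    have e01 := congrFun (congrFun hc 0) 1
    have e10 := congrFun (congrFun hc 1) 0
    simp [hX, hN, Matrix.mul_apply] at e00 e01 e10
    apply htr
    rw [← hZt, hc]
    simp [trace_fin_two]
    rw [sub_eq_zero] at e10
    rw [← e10] at e01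
    have : b = d := mul_right_cancel₀ h.t_ne (by linear_combination e01)
    rw [← e00, this]; ring
  obtain ⟨P, hP⟩ := exists_conj hns hZ hZt.symm hZd.symm
  refine ⟨(P : M₂) * X * ((P⁻¹ : GL (Fin 2) F) : M₂), (P : M₂) * N * ((P⁻¹ : GL (Fin 2) F) : M₂), ?_, ?_, ?_⟩
  · rw [hP]; simp [Matrix.mul_assoc, ← Matrix.mul_assoc ((P⁻¹ : GL (Fin 2) F) : M₂), Units.inv_mul]
  · exact Or.inl ⟨by rw [trace_units_conj, hXt], by rw [det_units_conj, hXd]⟩
  · unfold IsEll; rw [trace_units_conj, det_units_conj]; exact hNe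

end CfsgLib.PSpFourCover
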