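import Cfsg.Agent.Lib.PSpFourCover.Basic
import Cfsg.Agent.Lib.Forms.SympBridge

set_option autoImplicit false

/-!
Every element of `Sp₄`, up to sign, is a product of two conjugates of the elliptic Levi element.
-/

namespace CfsgLib.PSpFourCover

open Matrix

variable {F : Type*} [Field F] [Fintype F] {t d : F}

local notation "M₂" => Matrix (Fin 2) (Fin 2) F
local notation "M₄" => Matrix (Fin 2 ⊕ Fin 2) (Fin 2 ⊕ Fin 2) F
local notation "G₄" => Matrix.symplecticGroup (Fin 2) F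

omit [Fintype F] in
theorem conj_lev {g : G₄} {A B C D : M₂} (hg : (g : M₄) = fromBlocks A B C D) (R : GL (Fin 2) F) :
    ((lev R * g * (lev R)⁻¹ : G₄) : M₄) =
      fromBlocks ((R : M₂) * A * ((R⁻¹ : GL (Fin 2) F) : M₂)) ((R : M₂) * B * (R : M₂)ᵀ)
        (((R⁻¹ : GL (Fin 2) F) : M₂)ᵀ * C * ((R⁻¹ : GL (Fin 2) F) : M₂))
        (((R⁻¹ : GL (Fin 2) F) : M₂)ᵀ * D * (R : M₂)ᵀ) := by
  rw [← map_inv, Submonoid.coe_mul, Submonoid.coe_mul, hg, lev_val, lev_val, inv_inv]
  simp [fromBlocks_multiply]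

omit [Fintype F] in
theorem blocks_rel {g : G₄} {A B C D : M₂} (hg : (g : M₄) = fromBlocks A B C D) :
    A * Bᵀ = B * Aᵀ ∧ Aᵀ * C = Cᵀ * A ∧ Aᵀ * D - Cᵀ * B = 1 := by
  obtain ⟨A', B', C', D', hg', h1, -, -, h4, -, h6⟩ := exists_blocks g
  rw [hg, fromBlocks_inj] at hg'
  obtain ⟨rfl, rfl, rfl, rfl⟩ := hg'
  exact ⟨h1, h4, h6⟩

/-- The first column of the lower left block vanishes and the second does not. -/
theorem cov_of_col (h : Params t d) {g : G₄} {A B C D : M₂} (hg : (g : M₄) = fromBlocks A B C D)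
    (h00 : C 0 0 = 0) (h10 : C 1 0 = 0) (hC : C 0 1 ≠ 0 ∨ C 1 1 ≠ 0) : Cov h g := by
  obtain ⟨-, hAC, hAD⟩ := blocks_rel hg
  have e01 : A 0 0 * C 0 1 + A 1 0 * C 1 1 = 0 := by
    simpa [Matrix.mul_apply, h00, h10] using congrFun (congrFun hAC 0) 1
  have e00 : A 0 0 * D 0 0 + A 1 0 * D 1 0 = 1 := by
    simpa [Matrix.mul_apply, h00, h10] using congrFun (congrFun hAD 0) 0
  classical
  by_cases hz : A 1 0 = 0
  · have hl : A 0 0 ≠ 0 := fun e => by simp [e, hz] at e00
    have hC01 : C 0 1 = 0 := by simpa [hz, hl] using e01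
    have hC11 : C 1 1 ≠ 0 := hC.resolve_left (fun e => e hC01)
    set w := if A 0 0 = 1 then d * d else 1 / A 0 0 with hw
    apply cov_of_conj (upper 0 ((1 - A 0 1) / C 1 1) ((w - A 1 1) / C 1 1))
    refine cov_of_good h (conj_upper hg _ _ _) ?_
    have hA : A + sym 0 ((1 - A 0 1) / C 1 1) ((w - A 1 1) / C 1 1) * C = !![A 0 0, 1; 0, w] := by
      ext i j; fin_cases i <;> fin_cases j <;>
        simp [sym, Matrix.mul_apply, Matrix.vecMul, dotProduct, Fin.sum_univ_two, h00, h10, hC01, hz] <;> field_simp <;> ring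
    rw [hA]
    have hns : ∀ c : F, !![A 0 0, 1; 0, w] ≠ c • (1 : M₂) := fun c hc => by
      simpa using congrFun (congrFun hc 0) 1
    by_cases h1 : A 0 0 = 1
    · rw [if_pos h1] at hw
      refine good_det_sq h hns (by simp [h1, hw]) fun e => h.d_ne_one ?_
      simp [trace_fin_two, h1, hw] at e
      have : (d - 1) * (d - 1) = 0 := by linear_combination e
      exact sub_eq_zero.1 ((mul_self_eq_zero).1 this)
    · rw [if_neg h1] at hw
      refine good_det_one h hns (by simp [hw, hl]) fun e => h1 ?_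
      simp [trace_fin_two, hw] at e
      have : (A 0 0 - 1) * (A 0 0 - 1) = 0 := by
        field_simp at e
        linear_combination e
      exact sub_eq_zero.1 ((mul_self_eq_zero).1 this)
  · have hC01 : C 0 1 ≠ 0 := by
      intro e
      have : C 1 1 = 0 := by simpa [e, hz] using e01
      exact hC.elim (fun k => k e) (fun k => k this)
    set r := (1 - A 0 0 - A 1 1) / C 0 1 with hr
    set p := ((A 0 0 * (1 - A 0 0) - 1) / A 1 0 - A 0 1 - r * C 1 1) / C 0 1 with hp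
    apply cov_of_conj (upper p r 0)
    refine cov_of_good h (conj_upper hg _ _ _) ?_
    have hA : A + sym p r 0 * C =
        !![A 0 0, (A 0 0 * (1 - A 0 0) - 1) / A 1 0; A 1 0, 1 - A 0 0] := by
      ext i j; fin_cases i <;> fin_cases j <;>
        simp [sym, Matrix.mul_apply, Matrix.vecMul, dotProduct, Fin.sum_univ_two, h00, h10, hp, hr] <;> field_simp <;> ring
    rw [hA]
    refine good_det_one h (fun c hc => hz (by simpa using congrFun (congrFun hc 1) 0))
      (by simp; field_simp; ring) fun e => ?_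
    simp [trace_fin_two] at e
    exact one_ne_zero (α := F) (by linear_combination -e)

/-- An eigenvector with non-scalar action on its orthogonal quotient. -/
theorem cov_of_quot (h : Params t d) {g : G₄} {A B C D : M₂} (hg : (g : M₄) = fromBlocks A B C D)
    (hA : A 1 0 = 0) (h00 : C 0 0 = 0) (h10 : C 1 0 = 0)
    (hq : C 1 1 ≠ 0 ∨ B 1 1 ≠ 0 ∨ A 1 1 ≠ D 1 1) : Cov h g := by
  by_cases hC : C 0 1 ≠ 0 ∨ C 1 1 ≠ 0
  · exact cov_of_col h hg h00 h10 hC
  push Not at hC
  have hq' : B 1 1 ≠ 0 ∨ A 1 1 ≠ D 1 1 := hq.resolve_left fun e => e hC.2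
  have key : ∀ s : F, s ≠ 0 → A 1 1 - D 1 1 ≠ s * B 1 1 → Cov h g := by
    intro s hs hne
    apply cov_of_conj (lower 0 0 s)
    refine cov_of_col h (conj_lower hg _ _ _) ?_ ?_ (Or.inr ?_)
    · simp [sym, Matrix.mul_apply, Matrix.vecMul, dotProduct, Fin.sum_univ_two, h00]
    · simp [sym, Matrix.mul_apply, Matrix.vecMul, dotProduct, Fin.sum_univ_two, h10, hA]
    · simp [sym, Matrix.mul_apply, Matrix.vecMul, dotProduct, Fin.sum_univ_two, hC.2]
      intro e
      exact hne (mul_left_cancel₀ hs (by linear_combination e))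
  by_contra hcon
  have k1 := not_imp_comm.1 (key 1 one_ne_zero) hcon
  have k2 := not_imp_comm.1 (key d h.d_ne) hcon
  have hB : B 1 1 = 0 := by
    have : (d - 1) * B 1 1 = 0 := by linear_combination k1 - k2
    exact (mul_eq_zero.1 this).resolve_left (sub_ne_zero.2 h.d_ne_one)
  exact hq'.elim (fun k => k hB) fun k => k (sub_eq_zero.1 (by rw [k1, hB, mul_zero]))

theorem cov_involution (h : Params t d) (h2 : (2 : F) ≠ 0) {g : G₄}
    (hg : (g : M₄) = fromBlocks !![-1, 0; 0, 1] 0 0 !![-1, 0; 0, 1]) : Cov h g := by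
  apply cov_of_conj (lower 0 1 0)
  apply cov_of_conj (upper (-1 / 2) (-1 / 2) (-1 / 2))
  refine cov_of_good h (conj_upper (conj_lower hg _ _ _) _ _ _) ?_
  have hA : (!![-1, 0; 0, 1] : M₂) - 0 * sym 0 1 0 + sym (-1 / 2) (-1 / 2) (-1 / 2) *
      (0 + sym 0 1 0 * !![-1, 0; 0, 1] - (sym 0 1 0 * 0 + !![-1, 0; 0, 1]) * sym 0 1 0) =
      !![0, -1; 1, 0] := by
    ext i j; fin_cases i <;> fin_cases j <;> simp [sym, Matrix.mul_apply, Matrix.vecMul, dotProduct, Fin.sum_univ_two] <;> field_simp <;> ring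
  rw [hA]
  exact good_det_one h (fun c hc => by simpa using congrFun (congrFun hc 1) 0) (by simp)
    (by simpa [trace_fin_two] using h2.symm)

/-- An eigenvector whose orthogonal quotient is fixed. -/
theorem cov_of_quot_one (h : Params t d) {g : G₄} {A B C D : M₂} (hg : (g : M₄) = fromBlocks A B C D)
    (hA : A 1 0 = 0) (hA1 : A 1 1 = 1) (hC : C = 0) (hB : B 1 1 = 0) : Cov h g := by
  subst hC
  obtain ⟨hAB, -, hAD⟩ := blocks_rel hg
  simp only [Matrix.transpose_zero, Matrix.zero_mul, sub_zero] at hAD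
  have d00 : A 0 0 * D 0 0 = 1 := by simpa [Matrix.mul_apply, hA] using congrFun (congrFun hAD 0) 0
  have hl : A 0 0 ≠ 0 := left_ne_zero_of_mul_eq_one d00
  have d01 : D 0 1 = 0 := by
    simpa [Matrix.mul_apply, hA, hl] using congrFun (congrFun hAD 0) 1
  have d10 : A 0 1 * D 0 0 + D 1 0 = 0 := by
    simpa [Matrix.mul_apply, hA1] using congrFun (congrFun hAD 1) 0
  have d11 : D 1 1 = 1 := by
    simpa [Matrix.mul_apply, hA1, d01] using congrFun (congrFun hAD 1) 1
  by_cases h1 : A 0 0 = 1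
  · rw [h1, one_mul] at d00
    rw [d00, mul_one] at d10
    by_cases ha : A 0 1 = 0
    · refine cov_of_good h hg ?_
      rw [show A = 1 by ext i j; fin_cases i <;> fin_cases j <;> simp [h1, ha, hA, hA1]]
      exact good_one h
    · apply cov_of_conj (lower 1 0 0)
      apply cov_of_conj (upper (-1) ((d - 1) / A 0 1)
        (B 1 0 / A 0 1 + (d - 1) * B 0 0 / (A 0 1 * A 0 1)))
      refine cov_of_good h (conj_upper (conj_lower hg _ _ _) _ _ _) ?_
      have e : D 1 0 = -A 0 1 := by linear_combination d10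
      convert good_d h using 1
      ext i j; fin_cases i <;> fin_cases j <;>
        simp [sym, Matrix.mul_apply, Matrix.vecMul, dotProduct, Fin.sum_univ_two, h1, hA, hA1, d00, d01, d11, e] <;> field_simp <;> ring
  · set α := A 0 1 / (A 0 0 - 1) with hα
    have h1' : A 0 0 - 1 ≠ 0 := sub_ne_zero.2 h1
    let S : GL (Fin 2) F := ⟨!![1, α; 0, 1], !![1, -α; 0, 1],
      by ext i j; fin_cases i <;> fin_cases j <;> simp [Matrix.mul_apply],
      by ext i j; fin_cases i <;> fin_cases j <;> simp [Matrix.mul_apply]⟩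
    let W : GL (Fin 2) F := ⟨!![0, 1; 1, 0], !![0, 1; 1, 0],
      by ext i j; fin_cases i <;> fin_cases j <;> simp [Matrix.mul_apply],
      by ext i j; fin_cases i <;> fin_cases j <;> simp [Matrix.mul_apply]⟩
    have hS : (S : M₂) = !![1, α; 0, 1] := rfl
    have hSi : ((S⁻¹ : GL (Fin 2) F) : M₂) = !![1, -α; 0, 1] := rfl
    have hW : (W : M₂) = !![0, 1; 1, 0] := rfl
    have hWi : ((W⁻¹ : GL (Fin 2) F) : M₂) = !![0, 1; 1, 0] := rfl
    apply cov_of_conj (lev S)
    have hgS := conj_lev hg S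
    set g₁ := lev S * g * (lev S)⁻¹
    set B' := (S : M₂) * B * (S : M₂)ᵀ with hB'
    have hA' : (S : M₂) * A * ((S⁻¹ : GL (Fin 2) F) : M₂) = !![A 0 0, 0; 0, 1] := by
      ext i j; fin_cases i <;> fin_cases j <;>
        simp [hS, hSi, Matrix.mul_apply, Matrix.vecMul, dotProduct, Fin.sum_univ_two, hA, hA1, hα] <;> field_simp <;> ring
    have hD' : ((S⁻¹ : GL (Fin 2) F) : M₂)ᵀ * D * (S : M₂)ᵀ = !![D 0 0, 0; 0, 1] := by
      have e : D 1 0 = -(A 0 1 * D 0 0) := by linear_combination d10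
      ext i j; fin_cases i <;> fin_cases j <;>
        simp [hS, hSi, Matrix.mul_apply, Matrix.vecMul, dotProduct, Fin.sum_univ_two, d01, d11, e, hα] <;> field_simp <;>
        first
          | ring1
          | linear_combination (A 0 1) * d00
          | linear_combination -(A 0 1) * d00
          | linear_combination (-(2 : F) * A 0 1) * d00
    have hB11 : B' 1 1 = 0 := by simp [hB', hS, Matrix.mul_apply, Matrix.vecMul, dotProduct, Fin.sum_univ_two, hB]
    rw [hA', hD', Matrix.mul_zero, Matrix.zero_mul] at hgS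
    obtain ⟨hAB', -, -⟩ := blocks_rel hgS
    have b10 : A 0 0 * B' 1 0 = B' 0 1 := by
      simpa [Matrix.mul_apply] using congrFun (congrFun hAB' 0) 1
    by_cases hq : B' 0 0 ≠ 0 ∨ A 0 0 ≠ D 0 0
    · apply cov_of_conj (lev W)
      refine cov_of_quot h (conj_lev hgS W) ?_ ?_ ?_ (Or.inr ?_)
      · simp [hW, hWi, Matrix.mul_apply]
      · simp
      · simp
      · simpa [hW, hWi, Matrix.mul_apply, Matrix.vecMul, dotProduct, Fin.sum_univ_two] using hq
    push Not at hq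
    have hm : A 0 0 = -1 :=
      (mul_self_eq_one_iff.1 (by rw [hq.2] at d00 ⊢; exact d00)).resolve_left h1
    have h2 : (2 : F) ≠ 0 := fun e => h1 (by linear_combination hm + -1 * e)
    apply cov_of_conj (upper 0 (-(B' 0 1) / 2) 0)
    refine cov_involution h h2 ?_
    rw [conj_upper hgS, ← hq.2, hm, fromBlocks_inj]
    rw [hm] at b10
    refine ⟨by simp, ?_, rfl, by simp⟩
    have e : B' 1 0 = -B' 0 1 := by linear_combination -b10
    ext i j; fin_cases i <;> fin_cases j <;>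
      simp [sym, Matrix.mul_apply, Matrix.vecMul, dotProduct, Fin.sum_univ_two, hB11, hq.1, e] <;> field_simp <;> ring

omit [Fintype F] in
theorem exists_map_e1 {v : Fin 2 ⊕ Fin 2 → F} (hv : v ≠ 0) :
    ∃ p : G₄, (p : M₄) *ᵥ v = Sum.elim ![1, 0] 0 := by
  obtain ⟨w, hw⟩ : ∃ w, Cfsg.sympForm 2 F v w ≠ 0 := by
    by_contra hc
    push Not at hc
    exact hv (Omega.sympBilin_nondegenerate v fun w => by
      rw [← LinearMap.IsAlt.neg (Forms.sympBilin_isAlt 2 F), Omega.sympBilin_apply, neg_eq_zero]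
      rw [← Omega.sympBilin_apply, ← LinearMap.IsAlt.neg (Forms.sympBilin_isAlt 2 F),
        Omega.sympBilin_apply, hc w, neg_zero])
  obtain ⟨p, hp, -⟩ := Forms.exists_sp_map_pair v ((Cfsg.sympForm 2 F v w)⁻¹ • w)
    (Sum.elim ![1, 0] 0) (Sum.elim 0 ![-1, 0])
    (by rw [← Omega.sympBilin_apply, map_smul, smul_eq_mul, Omega.sympBilin_apply,
      inv_mul_cancel₀ hw])
    (by simp [Cfsg.sympForm, Matrix.J, dotProduct, Matrix.mulVec, Fintype.sum_sum_type])
  exact ⟨p, hp⟩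

omit [Fintype F] in
theorem coe_conj_mulVec (p g : G₄) (v : Fin 2 ⊕ Fin 2 → F) :
    ((p * g * p⁻¹ : G₄) : M₄) *ᵥ ((p : M₄) *ᵥ v) = (p : M₄) *ᵥ ((g : M₄) *ᵥ v) := by
  have : (p * g * p⁻¹) * p = p * g := by group
  rw [Matrix.mulVec_mulVec, Matrix.mulVec_mulVec, ← Submonoid.coe_mul, ← Submonoid.coe_mul, this]

omit [Fintype F] in
theorem mulVec_injective (p : G₄) : Function.Injective ((p : M₄) *ᵥ ·) := fun u v e => by
  have := congrArg (((p⁻¹ : G₄) : M₄) *ᵥ ·) e
  simpa [Matrix.mulVec_mulVec, ← Submonoid.coe_mul] using this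

omit [Fintype F] in
theorem fromBlocks_mulVec_e1 (A B C D : M₂) :
    fromBlocks A B C D *ᵥ Sum.elim ![1, 0] 0 = Sum.elim ![A 0 0, A 1 0] ![C 0 0, C 1 0] := by
  funext i
  rcases i with i | i <;> fin_cases i <;> simp [Matrix.mulVec, dotProduct, Fintype.sum_sum_type]

theorem cov_or_rel (h : Params t d) {g : G₄}
    (hne : ∀ v, v ≠ 0 → ∀ l : F, (g : M₄) *ᵥ v ≠ l • v) {v : Fin 2 ⊕ Fin 2 → F} (hv : v ≠ 0)
    (hiso : Cfsg.sympForm 2 F v ((g : M₄) *ᵥ v) = 0) :
    Cov h g ∨ ∃ (k l : F) (p : G₄) (A B D : M₂), A 1 0 ≠ 0 ∧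
      ((p * g * p⁻¹ : G₄) : M₄) = fromBlocks A B 0 D ∧ (p : M₄) *ᵥ v = Sum.elim ![1, 0] 0 ∧
      (g : M₄) *ᵥ ((g : M₄) *ᵥ v) = k • v + l • ((g : M₄) *ᵥ v) := by
  obtain ⟨p, hp⟩ := exists_map_e1 hv
  obtain ⟨p, A, B, C, D, hp, hg, hz, h00, h10⟩ : ∃ (p : G₄) (A B C D : M₂),
      (p : M₄) *ᵥ v = Sum.elim ![1, 0] 0 ∧ ((p * g * p⁻¹ : G₄) : M₄) = fromBlocks A B C D ∧
      A 1 0 ≠ 0 ∧ C 0 0 = 0 ∧ C 1 0 = 0 := by
    obtain ⟨A, B, C, D, hg, -⟩ := exists_blocks (p * g * p⁻¹)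
    have hcol : (p : M₄) *ᵥ ((g : M₄) *ᵥ v) = Sum.elim ![A 0 0, A 1 0] ![C 0 0, C 1 0] := by
      rw [← coe_conj_mulVec, hp, hg, fromBlocks_mulVec_e1]
    have h00 : C 0 0 = 0 := by
      have := (Omega.sympForm_mulVec_of_mem p.2 v ((g : M₄) *ᵥ v)).trans hiso
      rw [hp, hcol] at this
      simpa [Cfsg.sympForm, Matrix.J, dotProduct, Matrix.mulVec, Fintype.sum_sum_type,
        Matrix.one_apply] using this
    have hne' : A 1 0 ≠ 0 ∨ C 1 0 ≠ 0 := by
      by_contra hc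
      push Not at hc
      refine hne v hv (A 0 0) (mulVec_injective p ?_)
      show (p : M₄) *ᵥ _ = (p : M₄) *ᵥ _
      rw [hcol, Matrix.mulVec_smul, hp]
      funext i
      rcases i with i | i <;> fin_cases i <;> simp [hc.1, hc.2, h00]
    have step : ∀ (r : G₄) {A' B' C' D' : M₂},
        ((r * (p * g * p⁻¹) * r⁻¹ : G₄) : M₄) = fromBlocks A' B' C' D' →
        (r : M₄) *ᵥ Sum.elim ![1, 0] 0 = Sum.elim ![(1 : F), 0] 0 →
        A' 1 0 ≠ 0 → C' 0 0 = 0 → C' 1 0 = 0 →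
        ∃ (p : G₄) (A B C D : M₂), (p : M₄) *ᵥ v = Sum.elim ![1, 0] 0 ∧
          ((p * g * p⁻¹ : G₄) : M₄) = fromBlocks A B C D ∧ A 1 0 ≠ 0 ∧ C 0 0 = 0 ∧ C 1 0 = 0 := by
      intro r A' B' C' D' he hr k1 k2 k3
      refine ⟨r * p, A', B', C', D', ?_, ?_, k1, k2, k3⟩
      · rw [Submonoid.coe_mul, ← Matrix.mulVec_mulVec, hp, hr]
      · rw [show r * p * g * (r * p)⁻¹ = r * (p * g * p⁻¹) * r⁻¹ by group]; exact he
    have hlow : ∀ s : F, ((lower 0 0 s : G₄) : M₄) *ᵥ Sum.elim ![1, 0] 0 =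
        Sum.elim ![(1 : F), 0] 0 := fun s => by
      rw [lower, fromBlocks_mulVec_e1]
      funext i; rcases i with i | i <;> fin_cases i <;> simp [sym]
    by_cases hz : A 1 0 = 0
    · have hC := hne'.resolve_left (fun k => k hz)
      have e := conj_lower (conj_upper hg 0 0 1) 0 0 (-1)
      rw [show lower 0 0 (-1) * (upper 0 0 1 * (p * g * p⁻¹) * (upper 0 0 1)⁻¹) * (lower 0 0 (-1))⁻¹ =
          lower 0 0 (-1) * upper 0 0 1 * (p * g * p⁻¹) * (lower 0 0 (-1) * upper 0 0 1)⁻¹ by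
            group] at e
      refine step (lower 0 0 (-1) * upper 0 0 1) e ?_ ?_ ?_ ?_
      · rw [Submonoid.coe_mul, ← Matrix.mulVec_mulVec, upper, fromBlocks_mulVec_e1,
          show (Sum.elim ![(1 : M₂) 0 0, (1 : M₂) 1 0] ![(0 : M₂) 0 0, (0 : M₂) 1 0]) =
            Sum.elim ![(1 : F), 0] 0 by funext i; rcases i with i | i <;> fin_cases i <;> simp]
        exact hlow _
      · simpa [sym, Matrix.mul_apply, Matrix.vecMul, dotProduct, Fin.sum_univ_two, hz] using hC
      · simp [sym, Matrix.mul_apply, Matrix.vecMul, dotProduct, Fin.sum_univ_two, h00]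
      · simp [sym, Matrix.mul_apply, Matrix.vecMul, dotProduct, Fin.sum_univ_two, hz, h00]
    · refine step (lower 0 0 (-C 1 0 / A 1 0)) (conj_lower hg _ _ _) (hlow _) ?_ ?_ ?_
      · simpa [sym, Matrix.mul_apply, Matrix.vecMul, dotProduct, Fin.sum_univ_two] using hz
      · simp [sym, Matrix.mul_apply, Matrix.vecMul, dotProduct, Fin.sum_univ_two, h00]
      · simp [sym, Matrix.mul_apply, Matrix.vecMul, dotProduct, Fin.sum_univ_two]; field_simp; ring
  by_cases hC : C 0 1 ≠ 0 ∨ C 1 1 ≠ 0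
  · exact Or.inl (cov_of_conj p (cov_of_col h hg h00 h10 hC))
  push Not at hC
  have hC0 : C = 0 := by ext i j; fin_cases i <;> fin_cases j <;> simp [h00, h10, hC.1, hC.2]
  subst hC0
  refine Or.inr ⟨-A.det, A.trace, p, A, B, D, hz, hg, hp, mulVec_injective p ?_⟩
  show (p : M₄) *ᵥ _ = (p : M₄) *ᵥ _
  have hgv : (p : M₄) *ᵥ ((g : M₄) *ᵥ v) = fromBlocks A B 0 D *ᵥ Sum.elim ![1, 0] 0 := by
    rw [← hp, ← hg, coe_conj_mulVec]
  have hggv : (p : M₄) *ᵥ ((g : M₄) *ᵥ ((g : M₄) *ᵥ v)) =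
      fromBlocks A B 0 D *ᵥ ((p : M₄) *ᵥ ((g : M₄) *ᵥ v)) := by rw [← hg, coe_conj_mulVec]
  rw [Matrix.mulVec_add, Matrix.mulVec_smul, Matrix.mulVec_smul, hggv, hgv, hp,
    fromBlocks_mulVec_e1]
  funext i
  rcases i with i | i <;> fin_cases i <;>
    simp [Matrix.mulVec, dotProduct, Fintype.sum_sum_type, trace_fin_two, det_fin_two] <;> ring

/-- An element without eigenvectors. -/
theorem cov_of_noEig (h : Params t d) (g : G₄)
    (hne : ∀ v, v ≠ 0 → ∀ l : F, (g : M₄) *ᵥ v ≠ l • v) : Cov h g := by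
  let Q : QuadraticForm F (Fin 2 ⊕ Fin 2 → F) :=
    LinearMap.BilinMap.toQuadraticMap ((Omega.sympBilin 2 F).compl₂ (Matrix.toLin' (g : M₄)))
  obtain ⟨v₀, hv₀, hiso⟩ := CfsgLib.Classes.exists_singular_of_three_le Q (by simp)
  simp [Q, Omega.sympBilin_apply] at hiso
  obtain hc | ⟨-, -, p, A, B, D, hz, hg, -⟩ := cov_or_rel h hne hv₀ hiso
  · exact hc
  apply cov_of_conj p
  set g' := p * g * p⁻¹ with hg'
  have hne' : ∀ w, w ≠ 0 → ∀ l : F, (g' : M₄) *ᵥ w ≠ l • w := by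
    intro w hw l e
    have hpi : (p : M₄) *ᵥ (((p⁻¹ : G₄) : M₄) *ᵥ w) = w := by
      rw [Matrix.mulVec_mulVec, ← Submonoid.coe_mul, mul_inv_cancel, Submonoid.coe_one, Matrix.one_mulVec]
    refine hne (((p⁻¹ : G₄) : M₄) *ᵥ w) (fun k => hw ?_) l (mulVec_injective p ?_)
    · rw [← hpi, k, Matrix.mulVec_zero]
    · show (p : M₄) *ᵥ _ = (p : M₄) *ᵥ _
      rw [← coe_conj_mulVec, Matrix.mulVec_smul, hpi, e]
  have hblk : ∀ a b : Fin 2 → F, (g' : M₄) *ᵥ Sum.elim a b = Sum.elim (A *ᵥ a + B *ᵥ b) (D *ᵥ b) := by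
    intro a b
    rw [hg, Matrix.fromBlocks_mulVec]
    simp
  have hAne : ∀ z : Fin 2 → F, z ≠ 0 → ∀ l : F, A *ᵥ z ≠ l • z := fun z hz0 l e =>
    hne' (Sum.elim z 0) (fun k => hz0 (funext fun i => congrFun k (.inl i))) l (by
      rw [hblk, Matrix.mulVec_zero, Matrix.mulVec_zero, add_zero, e]
      funext i; rcases i with i | i <;> simp)
  have hroot : ∀ x : F, x * x - A.trace * x + A.det ≠ 0 := by
    intro x hx
    rw [trace_fin_two, det_fin_two] at hx
    refine hAne ![x - A 1 1, A 1 0] (fun k => hz (by simpa using congrFun k 1)) x ?_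
    funext i; fin_cases i
    · simp [Matrix.mulVec, dotProduct]; linear_combination -hx
    · simp [Matrix.mulVec, dotProduct]; ring
  by_cases hd1 : A.det = 1
  · refine cov_of_good h hg (good_det_one h (fun c hc => hz ?_) hd1 fun e => hroot 1 ?_)
    · simpa using congrFun (congrFun hc 1) 0
    · linear_combination hd1 - e
  obtain ⟨-, -, hAD⟩ := blocks_rel hg
  simp only [Matrix.transpose_zero, Matrix.zero_mul, sub_zero] at hAD
  set δ := A.det with hδ
  have hδ0 : δ ≠ 0 := fun e => hroot 0 (by simp [e])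
  have hDv : δ • D = !![A 1 1, -A 1 0; -A 0 1, A 0 0] := by
    have e : D = (Aᵀ)⁻¹ := (Matrix.inv_eq_right_inv hAD).symm
    rw [e, Matrix.inv_def, Ring.inverse_eq_inv', det_transpose, ← hδ, smul_smul,
      mul_inv_cancel₀ hδ0, one_smul, adjugate_fin_two]
    ext i j; fin_cases i <;> fin_cases j <;> simp
  have D00 : δ * D 0 0 = A 1 1 := by simpa using congrFun (congrFun hDv 0) 0
  have D10 : δ * D 1 0 = -A 0 1 := by simpa using congrFun (congrFun hDv 1) 0
  have D01 : δ * D 0 1 = -A 1 0 := by simpa using congrFun (congrFun hDv 0) 1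
  have D11 : δ * D 1 1 = A 0 0 := by simpa using congrFun (congrFun hDv 1) 1
  have hA01 : A 0 1 ≠ 0 := fun e => hroot (A 0 0) (by
    rw [hδ, trace_fin_two, det_fin_two, e]; ring)
  set c₀ := A 0 0 - D 0 0
  set c₁ := A 0 1 - D 1 0
  have hc : c₀ ≠ 0 ∨ c₁ ≠ 0 := by
    by_contra hc
    push Not at hc
    have e1 : δ = -1 := by
      have : (δ + 1) * A 0 1 = 0 := by linear_combination δ * hc.2 + D10
      linear_combination (mul_eq_zero.1 this).resolve_right hA01
    have e2 : A 0 0 + A 1 1 = 0 := by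
      linear_combination -(δ * hc.1) - D00 + e1 * A 0 0
    exact hroot 1 (by rw [trace_fin_two, e2, e1]; ring)
  obtain ⟨a, ha⟩ : ∃ a : Fin 2 → F, c₀ * a 0 + c₁ * a 1 + B 0 0 = 0 := by
    rcases hc with hc | hc
    · exact ⟨![-B 0 0 / c₀, 0], by simp; field_simp; ring⟩
    · exact ⟨![0, -B 0 0 / c₁], by simp; field_simp; ring⟩
  set z : Fin 2 → F := ![-c₁, c₀] with hzdef
  have hz0 : z ≠ 0 := fun k => by
    rcases hc with hc | hc
    · exact hc (by simpa [hzdef] using congrFun k 1)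
    · exact hc (by simpa [hzdef] using congrFun k 0)
  have hrel : ∀ a : Fin 2 → F, c₀ * a 0 + c₁ * a 1 + B 0 0 = 0 → Cov h g' ∨
      A *ᵥ (A *ᵥ a + B *ᵥ ![1, 0]) + B *ᵥ (D *ᵥ ![1, 0]) =
        (-D.det) • a + D.trace • (A *ᵥ a + B *ᵥ ![1, 0]) := by
    intro a ha
    have hv : Sum.elim a ![1, 0] ≠ 0 := fun k => by simpa using congrFun k (.inr 0)
    have hi : Cfsg.sympForm 2 F (Sum.elim a ![1, 0]) ((g' : M₄) *ᵥ Sum.elim a ![1, 0]) = 0 := by
      rw [hblk]
      simp [Cfsg.sympForm, Matrix.J, dotProduct, Matrix.mulVec, Fintype.sum_sum_type, Matrix.one_apply]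
      linear_combination ha
    obtain hc' | ⟨k, l, -, -, -, -, -, -, -, e⟩ := cov_or_rel h hne' hv hi
    · exact Or.inl hc'
    refine Or.inr ?_
    rw [hblk, hblk] at e
    have e0 := congrFun e (.inr 0)
    have e1 := congrFun e (.inr 1)
    simp [Matrix.mulVec, dotProduct] at e0 e1
    have hl : l = D.trace := by
      have hD : D 1 0 ≠ 0 := fun k => hA01 (by rw [k, mul_zero] at D10; linear_combination D10)
      rw [trace_fin_two]
      exact mul_right_cancel₀ hD (by first | linear_combination e1 | linear_combination -e1)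
    have hk : k = -D.det := by
      rw [hl, trace_fin_two] at e0
      rw [det_fin_two]; linear_combination -e0
    rw [← hl, ← hk]
    funext i
    have := congrFun e (.inl i)
    fin_cases i <;> simpa [Matrix.mulVec, dotProduct] using this
  obtain h1 | h1 := hrel a ha
  · exact h1
  obtain h2 | h2 := hrel (a + z) (by simp [hzdef]; linear_combination ha)
  · exact h2
  have hzA : A *ᵥ (A *ᵥ z) = (-D.det) • z + D.trace • (A *ᵥ z) := by
    rw [Matrix.mulVec_add] at h2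
    simp only [Matrix.mulVec_add, smul_add] at h1 h2 ⊢
    linear_combination (norm := module) h2 - h1
  have hCH : A *ᵥ (A *ᵥ z) = (-δ) • z + A.trace • (A *ᵥ z) := by
    funext i
    fin_cases i <;> simp [hδ, Matrix.mulVec, dotProduct, trace_fin_two, det_fin_two] <;> ring
  have hlin : (D.trace - A.trace) • (A *ᵥ z) = (D.det - δ) • z := by
    linear_combination (norm := module) hCH - hzA
  exfalso
  have ht : D.trace = A.trace := by
    by_contra hne2
    refine hAne z hz0 ((D.det - δ) / (D.trace - A.trace)) ?_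
    apply smul_right_injective _ (sub_ne_zero.2 hne2)
    show (D.trace - A.trace) • _ = (D.trace - A.trace) • _
    rw [hlin, smul_smul, mul_div_cancel₀ _ (sub_ne_zero.2 hne2)]
  rw [ht, sub_self, zero_smul, eq_comm, smul_eq_zero] at hlin
  have hdD : D.det = δ := sub_eq_zero.1 (hlin.resolve_right hz0)
  have hdd : δ * δ = 1 := by
    have := congrArg Matrix.det hAD
    rwa [det_mul, det_transpose, hdD, ← hδ, det_one] at this
  have hm1 : δ = -1 := (mul_self_eq_one_iff.1 hdd).resolve_left hd1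
  have hτ : A.trace = 0 := by
    have e : δ * A.trace = A.trace := by
      conv_lhs => rw [← ht]
      rw [trace_fin_two, trace_fin_two]
      linear_combination D00 + D11
    have : (δ - 1) * A.trace = 0 := by linear_combination e
    exact (mul_eq_zero.1 this).resolve_left (sub_ne_zero.2 hd1)
  exact hroot 1 (by rw [hτ, hm1]; ring)

/-- Every element of `Sp₄` is, up to sign, covered. -/
theorem cov_or_cov_neg (h : Params t d) (g : G₄) :
    Cov h g ∨ Cov h ⟨-(g : M₄), SymplecticGroup.neg_mem g.2⟩ := by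
  by_cases hne : ∀ v, v ≠ 0 → ∀ l : F, (g : M₄) *ᵥ v ≠ l • v
  · exact Or.inl (cov_of_noEig h g hne)
  push Not at hne
  obtain ⟨v, hv, l, hl⟩ := hne
  obtain ⟨p, hp⟩ := exists_map_e1 hv
  obtain ⟨A, B, C, D, hg, -⟩ := exists_blocks (p * g * p⁻¹)
  have hcol : Sum.elim ![A 0 0, A 1 0] ![C 0 0, C 1 0] = l • Sum.elim ![(1 : F), 0] 0 := by
    rw [← fromBlocks_mulVec_e1 A B C D, ← hg, ← hp, coe_conj_mulVec, hl, Matrix.mulVec_smul]
  have hA : A 1 0 = 0 := by simpa using congrFun hcol (.inl 1)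
  have h00 : C 0 0 = 0 := by simpa using congrFun hcol (.inr 0)
  have h10 : C 1 0 = 0 := by simpa using congrFun hcol (.inr 1)
  by_cases hq : C 1 1 ≠ 0 ∨ B 1 1 ≠ 0 ∨ A 1 1 ≠ D 1 1
  · exact Or.inl (cov_of_conj p (cov_of_quot h hg hA h00 h10 hq))
  push Not at hq
  obtain ⟨-, hAC, hAD⟩ := blocks_rel hg
  have hl0 : A 0 0 * D 0 0 = 1 := by
    simpa [Matrix.mul_apply, hA, h00, h10] using congrFun (congrFun hAD 0) 0
  have hlne : A 0 0 ≠ 0 := left_ne_zero_of_mul_eq_one hl0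
  have hC01 : C 0 1 = 0 := by
    simpa [Matrix.mul_apply, hA, h00, h10, hlne] using congrFun (congrFun hAC 0) 1
  have hC : C = 0 := by ext i j; fin_cases i <;> fin_cases j <;> simp [h00, h10, hC01, hq.1]
  subst hC
  have hd01 : D 0 1 = 0 := by
    simpa [Matrix.mul_apply, hA, hlne] using congrFun (congrFun hAD 0) 1
  have hsq : A 1 1 * A 1 1 = 1 := by
    have := congrFun (congrFun hAD 1) 1
    simpa [Matrix.mul_apply, hd01, ← hq.2.2] using this
  rcases mul_self_eq_one_iff.1 hsq with e | e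
  · exact Or.inl (cov_of_conj p (cov_of_quot_one h hg hA e rfl hq.2.1))
  · refine Or.inr (cov_of_conj p ?_)
    have hneg : ((p * ⟨-(g : M₄), SymplecticGroup.neg_mem g.2⟩ * p⁻¹ : G₄) : M₄) =
        fromBlocks (-A) (-B) 0 (-D) := by
      rw [show ((p * ⟨-(g : M₄), SymplecticGroup.neg_mem g.2⟩ * p⁻¹ : G₄) : M₄) =
        -((p * g * p⁻¹ : G₄) : M₄) by simp [Submonoid.coe_mul], hg, fromBlocks_neg, neg_zero]
    exact cov_of_quot_one h hneg (by simp [hA]) (by simp [e]) rfl (by simp [hq.2.1])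

end CfsgLib.PSpFourCover
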