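import Cfsg.Agent.Lib.PSpFourCover.Cases
import Cfsg.Prelude.Def_Classical

set_option autoImplicit false

/-!
The projective symplectic group `PSp₄(F)` is the square of a semisimple class, apart from the identity.
-/

namespace CfsgLib.PSpFourCover

open Matrix

variable {F : Type*} [Field F]

local notation "M₂" => Matrix (Fin 2) (Fin 2) F
local notation "M₄" => Matrix (Fin 2 ⊕ Fin 2) (Fin 2 ⊕ Fin 2) F
local notation "G₄" => Matrix.symplecticGroup (Fin 2) F

theorem exists_pow_ellM {t d : F} (h : Params t d) (k : ℕ) :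
    ∃ a b : F, ((ellM h) ^ k : GL (Fin 2) F).val = !![a, -d * b; b, a + t * b] := by
  induction k with
  | zero =>
    exact ⟨1, 0, by rw [pow_zero, Units.val_one]; ext i j; fin_cases i <;> fin_cases j <;> simp⟩
  | succ k ih =>
    obtain ⟨a, b, e⟩ := ih
    refine ⟨-d * b, a + t * b, ?_⟩
    rw [pow_succ, Units.val_mul, e, ellM_val]
    ext i j; fin_cases i <;> fin_cases j <;> simp [Matrix.mul_apply] <;> ring

theorem not_dvd_orderOf_ellM [Fintype F] {t d : F} (h : Params t d) (p : ℕ) [Fact p.Prime] [CharP F p] :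
    ¬ p ∣ orderOf (ellM h) := by
  intro hdvd
  have : Finite (GL (Fin 2) F) := inferInstance
  set y := (ellM h) ^ (orderOf (ellM h) / p) with hy
  have hord : orderOf y = p :=
    orderOf_pow_orderOf_div (orderOf_pos _).ne' hdvd
  obtain ⟨a, b, e⟩ := exists_pow_ellM h (orderOf (ellM h) / p)
  have hnil : ((y : M₂) - 1) ^ p = 0 := by
    rw [sub_pow_char_of_commute _ (Commute.one_right _), one_pow, ← Units.val_pow_eq_pow_val, ← hord,
      pow_orderOf_eq_one, Units.val_one, sub_self]
  have hdet : ((y : M₂) - 1).det = 0 :=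
    (pow_eq_zero_iff (Fact.out : p.Prime).ne_zero).1 (by rw [← det_pow, hnil, det_zero])
  rw [hy, e, det_fin_two] at hdet
  simp at hdet
  have hb : b = 0 := by
    by_contra hb
    apply h.irr ((1 - a) / b)
    first
      | (field_simp; linear_combination hdet)
      | (field_simp; linear_combination -hdet)
  subst hb
  have ha : a = 1 := by
    have : (a - 1) * (a - 1) = 0 := by linear_combination hdet
    exact sub_eq_zero.1 (mul_self_eq_zero.1 this)
  have : y = 1 := Units.ext (by
    rw [hy, e, Units.val_one, ha]; ext i j; fin_cases i <;> fin_cases j <;> simp)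
  rw [this, orderOf_one] at hord
  exact (Fact.out : p.Prime).one_lt.ne hord

/-- `PSp₄(F)`, `|F| ≥ 3`: some semisimple element has every element as a product of two conjugates. -/
theorem psp_four_covered [Fintype F] (p : ℕ) [Fact p.Prime] [CharP F p] (h3 : 3 ≤ Fintype.card F) :
    ∃ x : Cfsg.PSp 2 F, ¬ p ∣ orderOf x ∧
      ∀ g : Cfsg.PSp 2 F, ∃ u v : Cfsg.PSp 2 F, g = (u * x * u⁻¹) * (v * x * v⁻¹) := by
  obtain ⟨t, d, h⟩ := exists_params h3
  let π := QuotientGroup.mk' (Subgroup.center G₄)
  refine ⟨π (lev (ellM h)), fun hdvd => not_dvd_orderOf_ellM h p ?_, fun g => ?_⟩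
  · refine hdvd.trans ((orderOf_map_dvd π _).trans ?_)
    rw [orderOf_injective lev lev_injective]
  obtain ⟨g, rfl⟩ := QuotientGroup.mk'_surjective _ g
  have fin : ∀ g', Cov h g' → π g' = π g → ∃ u v : Cfsg.PSp 2 F,
      π g = (u * π (lev (ellM h)) * u⁻¹) * (v * π (lev (ellM h)) * v⁻¹) := by
    rintro g' ⟨u, v, e⟩ hg'
    refine ⟨π u, π v, ?_⟩
    rw [← hg', e]
    simp only [map_mul, map_inv]
  obtain hc | hc := cov_or_cov_neg h g
  · exact fin g hc rfl
  · refine fin _ hc ((QuotientGroup.eq (s := Subgroup.center G₄)).2 ?_)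
    rw [Subgroup.mem_center_iff]
    intro z
    have hz : ((⟨-(g : M₄), SymplecticGroup.neg_mem g.2⟩⁻¹ * g : G₄) : M₄) = -1 := by
      set g' : G₄ := ⟨-(g : M₄), SymplecticGroup.neg_mem g.2⟩ with hg'
      have hg : (g : M₄) = -(g' : M₄) := by simp [hg']
      rw [Submonoid.coe_mul, hg, Matrix.mul_neg, ← Submonoid.coe_mul, inv_mul_cancel, Submonoid.coe_one]
    apply Subtype.ext
    simp only [Submonoid.coe_mul] at hz ⊢
    rw [hz]; simp

end CfsgLib.PSpFourCover
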